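import Cfsg.Agent.R2.Spec.X3.ExcA
import Cfsg.Agent.H360.Iso.TwF4
import Cfsg.Agent.H541.PRegTF4

/-!
# Box X3 of S3435: the row `²F₄(u)` (helper16, after helper352's row for S3461)
-/

set_option autoImplicit false
set_option linter.unusedSectionVars false

namespace Cfsg.Agent.R2.Spec.X3

open Cfsg Cfsg.Lie Cfsg.Agent.H493.PGF4T

universe u

section Main

variable {K : Type u} [Field K] [Fintype K] {m : ℕ} {p M : ℕ} {y₀ : ℤ}

/-- an element of order divisible by a prime factor of `P` -/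
theorem f4t_tor_dvd {S : Type u} [Group S] [Finite S] {P n : ℕ} (C : H541.PRegCC.CCdat S n) (hPn : P ∣ n)
    (h : H541.PRegTorus.Iso S P 1 12) {x : S} {s : ℕ} (hs : s.Prime) (hsx : s ∣ orderOf x) (hsP : s ∣ P) :
    orderOf x ∣ P := by
  obtain ⟨T, hc, hT, hcent, -⟩ := h
  have hP0 : 0 < P := by rw [← hT]; exact Nat.card_pos
  have hsf : Fact s.Prime := ⟨hs⟩
  obtain ⟨z', hz'⟩ := exists_prime_orderOf_dvd_card' (G := ↥T) s (by rw [hT]; exact hsP)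
  have hz : orderOf (z' : S) = s := by rw [Subgroup.orderOf_coe, hz']
  have hy : orderOf (x ^ (orderOf x / s)) = s := H541.PRegCC.pow_prime rfl (orderOf_pos x) hsx
  obtain ⟨g, hg⟩ := C.conj hs (hsP.trans hPn) hy hz
  rw [hcent _ z'.2 (fun h => by
    rw [pow_one] at h
    rw [h, orderOf_one] at hz
    exact hs.one_lt.ne hz)] at hg
  have h1 : g * x * g⁻¹ ∈ T := by
    rw [← hg, Subgroup.mem_centralizer_singleton_iff]
    have h3 : x * x ^ (orderOf x / s) = x ^ (orderOf x / s) * x := (Commute.refl x).pow_right _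
    calc g * x * g⁻¹ * (g * x ^ (orderOf x / s) * g⁻¹) = g * (x * x ^ (orderOf x / s)) * g⁻¹ := by group
      _ = g * (x ^ (orderOf x / s) * x) * g⁻¹ := by rw [h3]
      _ = _ := by group
  have h2 := Subgroup.orderOf_dvd_natCard T h1
  rw [hT] at h2
  have h3 : orderOf (g * x * g⁻¹) = orderOf x :=
    orderOf_injective (MulAut.conj g).toMonoidHom (MulAut.conj g).injective x
  rwa [h3] at h2

/-- a prime dividing `M` -/
theorem f4t_prime_cases (hK : Fintype.card K = 2 ^ (2 * m + 1)) (h : Cand p y₀ M ↥(twistedF4 K (2 ^ m))) {r : ℕ} (hr : r.Prime)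
    (hrM : r ∣ M) : (¬ (r : ℤ) ∣ f1 (2 ^ m) ∧ ¬ (r : ℤ) ∣ f2 (2 ^ m) ∧ ¬ (r : ℤ) ∣ fp (2 ^ m) ∧
      ¬ (r : ℤ) ∣ fm (2 ^ m)) ∧ r ≠ 2 := by
  have hr2 : r ≠ 2 := (h.prime_facts hr hrM).1
  have hna := h.not_adj hr hrM
  have hb := H378.TwRowsF.cast_card hK
  have to_nat : ∀ {n : ℕ} {z : ℤ}, (r : ℤ) ∣ z → z ∣ (n : ℤ) → r ∣ n := fun h1 h2 =>
    Int.natCast_dvd_natCast.1 (h1.trans h2)
  refine ⟨⟨fun h1 => hna (H378.TwRowsF.adj_minus hK hr hr2 h1), fun h1 => ?_, fun h1 => ?_, fun h1 => ?_⟩, hr2⟩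
  · refine hna (H378.TwRowsF.adj_plus hK hr hr2 (to_nat h1 ?_))
    push_cast
    rw [hb]
    exact ⟨1, by unfold f2; ring⟩
  · refine hna (H378.TwRowsF.adj_sq hK hr hr2 (to_nat h1 ?_))
    push_cast
    rw [hb]
    exact ⟨fm (2 ^ m), by unfold fp fm; ring⟩
  · refine hna (H378.TwRowsF.adj_sq hK hr hr2 (to_nat h1 ?_))
    push_cast
    rw [hb]
    exact ⟨fp (2 ^ m), by unfold fp fm; ring⟩

theorem f4t_coprime_M {N : ℕ} (h : ∀ r : ℕ, r.Prime → r ∣ M → ¬ r ∣ N) : Nat.Coprime N (M) :=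
  Nat.coprime_of_dvd fun r hr h1 h2 => h r hr h2 h1

/-- the numeric case `+` -/
theorem f4t_plus {p : ℕ} {b x T N : ℤ} (hb : 2 ≤ b) (hd : T - N = 2 * (b + 1) ^ 2)
    (h : ((p : ℤ) = x ∧ x % 4 = 1 ∧ 5 ≤ x ∧ 2 * T = x ^ 2 + 1 ∧ 2 * N = x ^ 2 + x) ∨ (x, T, N) ∈ excOdd) : False := by
  have h9 : 9 ≤ (b + 1) ^ 2 := by nlinarith
  rcases h with ⟨-, -, h5, h1, h2⟩ | h
  · linarith
  · simp only [excOdd, List.mem_cons, Prod.mk.injEq, List.not_mem_nil, or_false] at h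
    have h1 : (b + 1) ^ 2 = 23 ∨ (b + 1) ^ 2 = 17 ∨ (b + 1) ^ 2 = 24 ∨ (b + 1) ^ 2 = 208 := by
      generalize (b + 1) ^ 2 = s at hd h9 ⊢
      clear * - h hd h9
      omega
    have h2 : b + 1 ≤ 15 := by
      by_contra hcon
      push Not at hcon
      have h5 : 16 * 16 ≤ (b + 1) ^ 2 := by nlinarith
      generalize (b + 1) ^ 2 = s at h1 h5
      clear * - h1 h5
      omega
    have h3 : 3 ≤ b + 1 := by linarith
    generalize b + 1 = c at h1 h2 h3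
    clear * - h1 h2 h3
    interval_cases c <;> omega

/-- the numeric case `-` -/
theorem f4t_minus {p : ℕ} {c x T N : ℤ} (hc : 1 ≤ c) (hd : T - N = 2 * (2 * c - 1) ^ 2)
    (h : ((p : ℤ) = x ∧ x % 4 = 1 ∧ 5 ≤ x ∧ 2 * T = x ^ 2 + 1 ∧ 2 * N = x ^ 2 + x) ∨ (x, T, N) ∈ excOdd) : False := by
  have h9 : 1 ≤ (2 * c - 1) ^ 2 := by nlinarith
  rcases h with ⟨-, -, h5, h1, h2⟩ | h
  · linarith
  · simp only [excOdd, List.mem_cons, Prod.mk.injEq, List.not_mem_nil, or_false] at h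
    have h1 : (2 * c - 1) ^ 2 = 4 ∨ (2 * c - 1) ^ 2 = 23 ∨ (2 * c - 1) ^ 2 = 17 ∨ (2 * c - 1) ^ 2 = 24 ∨
        (2 * c - 1) ^ 2 = 208 := by
      generalize (2 * c - 1) ^ 2 = s at hd h9 ⊢
      clear * - h hd h9
      omega
    have h2 : c ≤ 8 := by
      by_contra hcon
      push Not at hcon
      have h5 : 16 * 16 ≤ (2 * c - 1) ^ 2 := by nlinarith
      generalize (2 * c - 1) ^ 2 = s at h1 h5
      clear * - h1 h5
      omega
    clear * - h1 h2 hc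
    interval_cases c <;> omega

/-- the numeric case `6` -/
theorem f4t_six {p : ℕ} {b x T N : ℤ} (hb : 2 ≤ b) (hT : T = 4 * b ^ 4 - 2 * b ^ 2 + 1) (hN : N = (2 * b ^ 2 - 1) * (2 * b ^ 2 + 1))
    (h : ((p : ℤ) = x ∧ x % 4 = 1 ∧ 5 ≤ x ∧ 2 * T = x ^ 2 + 1 ∧ 2 * N = x ^ 2 + x) ∨ (x, T, N) ∈ excOdd) : False := by
  have h4 : 4 ≤ b ^ 2 := by nlinarith
  rcases h with ⟨-, -, h5, h1, h2⟩ | h
  · have h3 : x = 4 * b ^ 2 - 3 := by rw [hT] at h1; rw [hN] at h2; linarith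
    rw [h3, hT] at h1
    have h6 : (2 * b ^ 2 - 1) * (b ^ 2 - 2) = 0 := by linarith
    rcases mul_eq_zero.1 h6 with h7 | h7 <;> linarith
  · have hd : T - N = 2 - 2 * b ^ 2 := by rw [hT, hN]; ring
    have hT2 : T = 4 * (b ^ 2) ^ 2 - 2 * b ^ 2 + 1 := by rw [hT]; ring
    simp only [excOdd, List.mem_cons, Prod.mk.injEq, List.not_mem_nil, or_false] at h
    have h1 : b ^ 2 = 4 ∧ T = 19 := by
      generalize b ^ 2 = s at hd h4 ⊢
      clear * - h hd h4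
      omega
    rw [h1.1, h1.2] at hT2
    norm_num at hT2

theorem f4t_shift {b : ℤ} (hb : 2 ≤ b) : ∃ t : ℤ, 0 ≤ t ∧ b = t + 2 := ⟨b - 2, by linarith, by ring⟩

theorem f4t_ineq_plus {b : ℤ} (hb : 2 ≤ b) :
    (2 * (b + 1) ^ 2) ^ 2 ≤ 5 * (4 * b ^ 4 + 4 * b ^ 3 + 2 * b ^ 2 + 2 * b + 1) := by
  obtain ⟨t, ht, rfl⟩ := f4t_shift hb
  have : 0 ≤ 16 * t ^ 4 + 132 * t ^ 3 + 394 * t ^ 2 + 498 * t + 221 := by positivity
  linarith

theorem f4t_ineq_minus {b : ℤ} (hb : 2 ≤ b) :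
    (2 * (b - 1) ^ 2) ^ 2 ≤ 5 * (4 * b ^ 4 - 4 * b ^ 3 + 2 * b ^ 2 - 2 * b + 1) := by
  obtain ⟨t, ht, rfl⟩ := f4t_shift hb
  have : 0 ≤ 16 * t ^ 4 + 124 * t ^ 3 + 346 * t ^ 2 + 414 * t + 181 := by positivity
  linarith

theorem f4t_ineq_six {b : ℤ} (hb : 2 ≤ b) :
    (2 - 2 * b ^ 2) ^ 2 ≤ 5 * (4 * b ^ 4 - 2 * b ^ 2 + 1) := by
  obtain ⟨t, ht, rfl⟩ := f4t_shift hb
  have : 0 ≤ 16 * t ^ 4 + 128 * t ^ 3 + 382 * t ^ 2 + 504 * t + 249 := by positivity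
  linarith

/-- element orders -/
theorem f4t_cert_nat (hK : Fintype.card K = 2 ^ (2 * m + 1)) {C : List (Fin 4 × H129.WData.Mat 4)}
    (hC : H129.WData.ChainOK Am C) {Th : H129.WData.Mat 4} (hTh : ∀ j, H129.WData.hd C (H493.F4Tor.rv j) = Th j)
    {F : ℤ → ℤ} {L : ℤ → Fin 4 → ℤ} {U : Fin 4 → ℤ} {G : ℤ → Fin 4 → ℤ} {c : ℤ} {H : ℤ → ℤ}
    (h : Cert Th F L U G c H)
    {F' : ℤ → ℤ} {L' : ℤ → Fin 4 → ℤ} {U' : Fin 4 → ℤ} {G' : ℤ → Fin 4 → ℤ} {c' : ℤ} {H' : ℤ → ℤ}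
    (h' : Cert Th F' L' U' G' c' H') {r s : ℕ} (hr : 0 < r) (hs : 0 < s) (h1 : (r : ℤ) = F (2 ^ m))
    (h2 : (s : ℤ) = F' (2 ^ m)) (hrs : r.Coprime s) :
    ∃ x : ↥(twistedF4 K (2 ^ m)), orderOf x = r * s := by
  obtain ⟨x, y, hx, hy, hxy⟩ := H360.Iso.exists_pair_cert hK hC hTh h h' hr hs (by rw [h1]) (by rw [h2])
  exact ⟨x * y, by
    rw [(show Commute x y from hxy).orderOf_mul_eq_mul_orderOf_of_coprime (by rw [hx, hy]; exact hrs), hx, hy]⟩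

set_option maxHeartbeats 2000000 in
/-- **no section `²F₄(u)`** -/
theorem row_tf4 (hm : 1 ≤ m) (hK : Fintype.card K = 2 ^ (2 * m + 1)) (h : Cand p y₀ M ↥(twistedF4 K (2 ^ m))) :
    False := by
  have hfin : Finite ↥(twistedF4 K (2 ^ m)) := inferInstance
  obtain ⟨P, N, D⟩ := H541.PRegTF4.exists_par hm
  have hcard := S1068.result hK
  have hcard' : Nat.card ↥(twistedF4 K (2 ^ m)) = (2 ^ (2 * m + 1)) ^ 12 * ((2 ^ (2 * m + 1) - 1) *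
      ((2 ^ (2 * m + 1)) ^ 3 + 1) * ((2 ^ (2 * m + 1)) ^ 4 - 1) * ((2 ^ (2 * m + 1)) ^ 6 + 1)) := by
    rw [hcard]; ring
  obtain ⟨hIP, hIN⟩ := H541.PRegTF4.tor hK rfl D hcard'
  have C := H541.PRegTF4.ccdat hK rfl D
  obtain ⟨x, hx⟩ := h.elt
  -- the parameter
  obtain ⟨b, hb⟩ : ∃ b : ℕ, b = 2 ^ m := ⟨_, rfl⟩
  have hbZ : (2 : ℤ) ^ m = (b : ℤ) := by rw [hb]; push_cast; rfl
  have hb2 : 2 ≤ b := by
    rw [hb]
    calc 2 = 2 ^ 1 := by norm_num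
      _ ≤ 2 ^ m := Nat.pow_le_pow_right (by norm_num) hm
  have hb2Z : (2 : ℤ) ≤ b := by exact_mod_cast hb2
  obtain ⟨c, hc⟩ : ∃ c : ℕ, b = 2 * c := by
    obtain ⟨m', rfl⟩ : ∃ m', m = m' + 1 := ⟨m - 1, by omega⟩
    exact ⟨2 ^ m', by rw [hb, pow_succ]; ring⟩
  have hc1 : (1 : ℤ) ≤ c := by omega
  have hcZ : (b : ℤ) = 2 * c := by exact_mod_cast hc
  have hPeq : (P : ℤ) = fP b := by rw [hb]; exact D.P_eq
  have hNeq : (N : ℤ) = fM b := by rw [hb]; exact D.N_eq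
  -- primes dividing `M`
  have key := fun {r : ℕ} (hr : r.Prime) (hrM : r ∣ M) => f4t_prime_cases hK h hr hrM
  rw [hbZ] at key
  -- the small orders
  obtain ⟨n1, hn1⟩ : ∃ n : ℕ, (n : ℤ) = f1 b := ⟨(f1 b).toNat, Int.toNat_of_nonneg (by unfold f1; nlinarith)⟩
  obtain ⟨n2, hn2⟩ : ∃ n : ℕ, (n : ℤ) = f2 b := ⟨(f2 b).toNat, Int.toNat_of_nonneg (by unfold f2; positivity)⟩
  obtain ⟨np, hnp⟩ : ∃ n : ℕ, (n : ℤ) = fp b := ⟨(fp b).toNat, Int.toNat_of_nonneg (by unfold fp; positivity)⟩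
  obtain ⟨nm, hnm⟩ : ∃ n : ℕ, (n : ℤ) = fm b := ⟨(fm b).toNat, Int.toNat_of_nonneg (by unfold fm; nlinarith)⟩
  have h1pos : 0 < n1 := by
    have : (0 : ℤ) < n1 := by rw [hn1]; unfold f1; nlinarith
    exact_mod_cast this
  have h2pos : 0 < n2 := by
    have : (0 : ℤ) < n2 := by rw [hn2]; unfold f2; positivity
    exact_mod_cast this
  have hppos : 0 < np := by
    have : (0 : ℤ) < np := by rw [hnp]; unfold fp; positivity
    exact_mod_cast this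
  have hmpos : 0 < nm := by
    have : (0 : ℤ) < nm := by rw [hnm]; unfold fm; nlinarith
    exact_mod_cast this
  -- coprimality
  have hodd1 : n1 % 2 = 1 := by
    have h1 : (n1 : ℤ) = 2 * (b : ℤ) ^ 2 - 1 := hn1
    omega
  have hodd2 : n2 % 2 = 1 := by
    have h1 : (n2 : ℤ) = 2 * (b : ℤ) ^ 2 + 1 := hn2
    omega
  have hoddp : np % 2 = 1 := by
    have h1 : (np : ℤ) = 2 * (b : ℤ) ^ 2 + 2 * b + 1 := hnp
    omega
  have hoddm : nm % 2 = 1 := by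
    have h1 : (nm : ℤ) = 2 * (b : ℤ) ^ 2 - 2 * b + 1 := hnm
    omega
  have hcop : ∀ {y z : ℕ}, y % 2 = 1 → (∀ r : ℕ, r.Prime → r ≠ 2 → (r : ℤ) ∣ y → (r : ℤ) ∣ z → False) →
      y.Coprime z := by
    intro y z hy hyz
    refine Nat.coprime_of_dvd fun r hr h1 h2 => ?_
    by_cases hr2 : r = 2
    · subst hr2; omega
    · exact hyz r hr hr2 (Int.natCast_dvd_natCast.2 h1) (Int.natCast_dvd_natCast.2 h2)
  have hpr : ∀ {r : ℕ}, r.Prime → r ≠ 2 → ∀ {z : ℤ}, (r : ℤ) ∣ 2 * z → (r : ℤ) ∣ z := by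
    intro r hr hr2 z hz
    have hr' := Nat.prime_iff_prime_int.1 hr
    rcases hr'.dvd_or_dvd hz with h1 | h1
    · exfalso
      have h3 : r ∣ 2 := by exact_mod_cast h1
      exact hr2 ((Nat.prime_dvd_prime_iff_eq hr Nat.prime_two).1 h3)
    · exact h1
  have hone : ∀ {r : ℕ}, r.Prime → ¬ (r : ℤ) ∣ 1 := fun {r} hr h1 =>
    hr.one_lt.ne' (Nat.dvd_one.1 (by exact_mod_cast h1))
  have hc12 : n1.Coprime n2 := hcop hodd1 fun r hr hr2 h1 h2 => by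
    rw [hn1] at h1
    rw [hn2] at h2
    have h3 : (r : ℤ) ∣ 2 * 1 := by
      have := dvd_sub h2 h1
      have e : f2 (b : ℤ) - f1 b = 2 * 1 := by unfold f1 f2; ring
      rwa [e] at this
    exact hone hr (hpr hr hr2 h3)
  have hc1p : n1.Coprime np := hcop hodd1 fun r hr hr2 h1 h2 => by
    rw [hn1] at h1
    rw [hnp] at h2
    have h3 : (r : ℤ) ∣ 2 * (b + 1) := by
      have := dvd_sub h2 h1
      have e : fp (b : ℤ) - f1 b = 2 * (b + 1) := by unfold f1 fp; ring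
      rwa [e] at this
    have h4 := hpr hr hr2 h3
    have h5 : (r : ℤ) ∣ 1 := by
      have e : (1 : ℤ) = f1 b - (b + 1) * (2 * (b - 1)) := by unfold f1; ring
      rw [e]
      exact dvd_sub h1 (h4.mul_right _)
    exact hone hr h5
  have hc1m : n1.Coprime nm := hcop hodd1 fun r hr hr2 h1 h2 => by
    rw [hn1] at h1
    rw [hnm] at h2
    have h3 : (r : ℤ) ∣ 2 * (b - 1) := by
      have := dvd_sub h1 h2
      have e : f1 (b : ℤ) - fm b = 2 * (b - 1) := by unfold f1 fm; ring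
      rwa [e] at this
    have h4 := hpr hr hr2 h3
    have h5 : (r : ℤ) ∣ 1 := by
      have e : (1 : ℤ) = f1 b - (b - 1) * (2 * (b + 1)) := by unfold f1; ring
      rw [e]
      exact dvd_sub h1 (h4.mul_right _)
    exact hone hr h5
  have hMn : ∀ {y z : ℕ}, ((y : ℤ) = f1 b ∨ (y : ℤ) = f2 b ∨ (y : ℤ) = fp b ∨ (y : ℤ) = fm b) →
      ((z : ℤ) = f1 b ∨ (z : ℤ) = f2 b ∨ (z : ℤ) = fp b ∨ (z : ℤ) = fm b) → Nat.Coprime (y * z) (M) := by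
    intro y z hy hz
    refine f4t_coprime_M fun r hr hrM hd => ?_
    obtain ⟨⟨k1, k2, k3, k4⟩, -⟩ := key hr hrM
    rcases hr.dvd_mul.1 hd with h1 | h1
    · have h2 := Int.natCast_dvd_natCast.2 h1
      rcases hy with hy | hy | hy | hy <;> rw [hy] at h2
      · exact k1 h2
      · exact k2 h2
      · exact k3 h2
      · exact k4 h2
    · have h2 := Int.natCast_dvd_natCast.2 h1
      rcases hz with hz | hz | hz | hz <;> rw [hz] at h2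
      · exact k1 h2
      · exact k2 h2
      · exact k3 h2
      · exact k4 h2
  have hodd_mul : ∀ {y z : ℕ}, y % 2 = 1 → z % 2 = 1 → (y * z) % 2 = 1 := fun hy hz => by
    rw [Nat.mul_mod, hy, hz]
  by_cases hA : ∃ r : ℕ, r.Prime ∧ r ∣ M ∧ r ∣ P
  · -- case `+`
    obtain ⟨r, hr, hrM, hrP⟩ := hA
    have hMP : M ∣ P := by
      have := f4t_tor_dvd C (dvd_mul_right P N) hIP hr (x := x) (by rw [hx]; exact hrM) hrP
      rwa [hx] at this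
    have eT : ∃ y : ↥(twistedF4 K (2 ^ m)), orderOf y = P := by
      have := H360.Iso.f4t_plus hK hb
      have e : P = 4 * b ^ 4 + 4 * b ^ 3 + 2 * b ^ 2 + 2 * b + 1 := by
        have : (P : ℤ) = 4 * (b : ℤ) ^ 4 + 4 * b ^ 3 + 2 * b ^ 2 + 2 * b + 1 := hPeq
        exact_mod_cast this
      rw [e]
      exact this
    have eN : ∃ y : ↥(twistedF4 K (2 ^ m)), orderOf y = n1 * np :=
      f4t_cert_nat hK chainB_ok hThB certB_f1 certB_fp h1pos hppos (by rw [hbZ, hn1]) (by rw [hbZ, hnp]) hc1p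
    have hN' : ((n1 * np : ℕ) : ℤ) = (2 * (b : ℤ) ^ 2 - 1) * (2 * b ^ 2 + 2 * b + 1) := by
      rw [Nat.cast_mul, hn1, hnp]; rfl
    have hP' : (P : ℤ) = 4 * (b : ℤ) ^ 4 + 4 * b ^ 3 + 2 * b ^ 2 + 2 * b + 1 := hPeq
    have hd : (P : ℤ) - (n1 * np : ℕ) = 2 * ((b : ℤ) + 1) ^ 2 := by rw [hP', hN']; ring
    have hp := h.pair_odd eT hMP eN (hodd_mul hodd1 hoddp) (hMn (Or.inl hn1) (Or.inr (Or.inr (Or.inl hnp)))) (by
      rw [hd, hP']
      exact f4t_ineq_plus hb2Z)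
    exact f4t_plus hb2Z hd hp
  by_cases hB : ∃ r : ℕ, r.Prime ∧ r ∣ M ∧ r ∣ N
  · -- case `-`
    obtain ⟨r, hr, hrM, hrN⟩ := hB
    have hMN : M ∣ N := by
      have := f4t_tor_dvd C (dvd_mul_left N P) hIN hr (x := x) (by rw [hx]; exact hrM) hrN
      rwa [hx] at this
    have hN0 : (N : ℤ) = 4 * (b : ℤ) ^ 4 - 4 * b ^ 3 + 2 * b ^ 2 - 2 * b + 1 := hNeq
    have eT : ∃ y : ↥(twistedF4 K (2 ^ m)), orderOf y = N := by
      refine H360.Iso.f4t_minus hK hb ?_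
      have : (N : ℤ) + 4 * (b : ℤ) ^ 3 + 2 * b = 4 * b ^ 4 + 2 * b ^ 2 + 1 := by rw [hN0]; ring
      exact_mod_cast this
    have eN : ∃ y : ↥(twistedF4 K (2 ^ m)), orderOf y = n1 * nm :=
      f4t_cert_nat hK chainC_ok hThC certC_f1 certC_fm h1pos hmpos (by rw [hbZ, hn1]) (by rw [hbZ, hnm]) hc1m
    have hN' : ((n1 * nm : ℕ) : ℤ) = (2 * (b : ℤ) ^ 2 - 1) * (2 * b ^ 2 - 2 * b + 1) := by
      rw [Nat.cast_mul, hn1, hnm]; rfl
    have hd : (N : ℤ) - (n1 * nm : ℕ) = 2 * ((b : ℤ) - 1) ^ 2 := by rw [hN0, hN']; ring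
    have hp := h.pair_odd eT hMN eN (hodd_mul hodd1 hoddm) (hMn (Or.inl hn1) (Or.inr (Or.inr (Or.inr hnm)))) (by
      rw [hd, hN0]
      exact f4t_ineq_minus hb2Z)
    exact f4t_minus hc1 (by rw [hd, hcZ]) hp
  -- the last case
  push Not at hA hB
  have hf6 : 0 < f6 (b : ℤ) := by
    have e : f6 (b : ℤ) = 3 * (b : ℤ) ^ 4 + ((b : ℤ) ^ 2 - 1) ^ 2 := by unfold f6; ring
    rw [e]
    positivity
  obtain ⟨n6, hn6⟩ : ∃ n : ℕ, (n : ℤ) = f6 b := ⟨(f6 b).toNat, Int.toNat_of_nonneg hf6.le⟩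
  have h6pos : 0 < n6 := by
    have : (0 : ℤ) < n6 := by rw [hn6]; exact hf6
    exact_mod_cast this
  have hT' : (n6 : ℤ) = 4 * (b : ℤ) ^ 4 - 2 * b ^ 2 + 1 := hn6
  have hM6 : M ∣ n6 := by
    have h1 : M ∣ n6 * (2 ^ 12 * b ^ 24 * (n1 * n2 * (n1 * n2 * (np * nm)) * ((np * nm) * (P * N)) * n1)) := by
      have h2 : M ∣ Nat.card ↥(twistedF4 K (2 ^ m)) := by
        rw [← hx]
        exact orderOf_dvd_natCard x
      rw [hcard] at h2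
      have h3 := Int.natCast_dvd_natCast.2 h2
      have k1 : 1 ≤ 2 ^ (2 * m + 1) := Nat.one_le_two_pow
      have k4 : 1 ≤ (2 ^ (2 * m + 1)) ^ 4 := Nat.one_le_pow _ _ k1
      apply Int.natCast_dvd_natCast.1
      rw [Nat.cast_mul, Nat.cast_mul, Nat.cast_mul, Nat.cast_mul, Nat.cast_sub k1, Nat.cast_sub k4] at h3
      push_cast at h3 ⊢
      have hbb : (2 : ℤ) ^ (2 * m + 1) = 2 * (b : ℤ) ^ 2 := by rw [← hbZ, ← pow_mul]; ring
      rw [hbb] at h3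
      rw [hn6, hn1, hn2, hnp, hnm, hPeq, hNeq]
      have e : (2 * (b : ℤ) ^ 2) ^ 12 * (2 * (b : ℤ) ^ 2 - 1) * ((2 * (b : ℤ) ^ 2) ^ 3 + 1) *
          ((2 * (b : ℤ) ^ 2) ^ 4 - 1) * ((2 * (b : ℤ) ^ 2) ^ 6 + 1) = f6 b * (2 ^ 12 * (b : ℤ) ^ 24 *
          (f1 b * f2 b * (f2 b * (fp b * fm b)) * ((fp b * fm b) * (fP b * fM b)) * f1 b)) := by
        unfold f1 f2 fp fm f6 fP fM
        ring
      rw [e] at h3
      refine h3.trans ⟨f1 b, ?_⟩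
      ring
    refine (Nat.Coprime.symm ?_).dvd_of_dvd_mul_right h1
    refine f4t_coprime_M fun r hr hrM hd => ?_
    obtain ⟨⟨k1, k2, k3, k4⟩, k5⟩ := key hr hrM
    rw [← hn1] at k1
    rw [← hn2] at k2
    rw [← hnp] at k3
    rw [← hnm] at k4
    rw [Int.natCast_dvd_natCast] at k1 k2 k3 k4
    have k6 := hA r hr hrM
    have k7 := hB r hr hrM
    have k8 : ¬ r ∣ 2 := fun h => k5 ((Nat.prime_dvd_prime_iff_eq hr Nat.prime_two).1 h)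
    have k9 : ¬ r ∣ b := fun h => k8 (hr.dvd_of_dvd_pow (hb ▸ h))
    simp only [hr.dvd_mul] at hd
    rcases hd with (h | h) | (((h | h) | (h | h) | (h | h)) | (h | h) | (h | h)) | h
    · exact k8 (hr.dvd_of_dvd_pow h)
    · exact k9 (hr.dvd_of_dvd_pow h)
    all_goals first
      | exact k1 h
      | exact k2 h
      | exact k3 h
      | exact k4 h
      | exact k6 h
      | exact k7 h
  have eT : ∃ y : ↥(twistedF4 K (2 ^ m)), orderOf y = n6 :=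
    H360.Iso.exists_order_cert hK chainD_ok hThD certD_f6 h6pos (by rw [hn6, hbZ])
  have eN : ∃ y : ↥(twistedF4 K (2 ^ m)), orderOf y = n1 * n2 :=
    f4t_cert_nat hK chainA_ok hThA certA_f1 certA_f2 h1pos h2pos (by rw [hbZ, hn1]) (by rw [hbZ, hn2]) hc12
  have hN' : ((n1 * n2 : ℕ) : ℤ) = (2 * (b : ℤ) ^ 2 - 1) * (2 * b ^ 2 + 1) := by
    rw [Nat.cast_mul, hn1, hn2]; rfl
  have hd : (n6 : ℤ) - (n1 * n2 : ℕ) = 2 - 2 * (b : ℤ) ^ 2 := by rw [hT', hN']; ring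
  have hp := h.pair_odd eT hM6 eN (hodd_mul hodd1 hodd2) (hMn (Or.inl hn1) (Or.inr (Or.inl hn2))) (by
    rw [hd, hT']
    exact f4t_ineq_six hb2Z)
  exact f4t_six hb2Z hT' hN' hp

end Main

end Cfsg.Agent.R2.Spec.X3
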