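import Cfsg.Agent.H420.Reduce
import Cfsg.Agent.R2.Spec.F1.KAdj

/-!
# Primes not adjacent to 2, nilpotent radical (helper16, S3435, box X3)

`Red G K S`, `K` nilpotent, `r` an odd prime divisor of `|G|` not adjacent to 2: then `r` does not divide
`|K| |G/K : S|` (also if `S` is `A₇` or `L₂(odd)`).
-/

set_option autoImplicit false

namespace Cfsg.Agent.R2.Spec.X3

open Subgroup Cfsg.Agent.H414.Adj Cfsg.Agent.H414.Good Cfsg.Agent.H414.Comp Cfsg.Agent.H414.QuatSec Cfsg.Agent.H414.Rad
open Cfsg.Agent.H420.QR (Red)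

universe u

variable {G : Type u} [Group G] [Finite G] {K : Subgroup G} [K.Normal] {S : Subgroup (G ⧸ K)} [S.Normal]

theorem exists_noncomm {H : Type*} [Group H] (h : ¬ IsMulCommutative H) : ∃ a b : H, a * b ≠ b * a := by
  by_contra hcon
  push Not at hcon
  exact h ⟨⟨hcon⟩⟩

/-- Klein four-groups in the quotient -/
theorem no_four (hn : Group.IsNilpotent K) {r : ℕ} (hr : r.Prime) (hr2 : r ≠ 2) (h : ¬ ∃ x : G, orderOf x = 2 * r)
    (hrK : r ∣ Nat.card K) {a b : G ⧸ K} (ha : orderOf a = 2) (hb : orderOf b = 2) (hab : a ≠ b)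
    (hcab : Commute a b) : False := by
  classical
  have h2' : Fact (Nat.Prime 2) := ⟨Nat.prime_two⟩
  have hr' : Fact r.Prime := ⟨hr⟩
  -- `|K|` is odd
  have hK2 : ¬ 2 ∣ Nat.card K := by
    intro h2
    obtain ⟨x, hx⟩ := exists_prime_orderOf_dvd_card' (G := K) 2 h2
    obtain ⟨y, hy⟩ := exists_prime_orderOf_dvd_card' (G := K) r hrK
    have hxy : Commute x y := F1.comm_of_nilpotent' hn Nat.prime_two hr hr2.symm
      ⟨1, by rw [pow_one, ← hx, pow_orderOf_eq_one]⟩ ⟨1, by rw [pow_one, ← hy, pow_orderOf_eq_one]⟩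
    refine h ⟨(x * y : K), ?_⟩
    rw [Subgroup.orderOf_coe, hxy.orderOf_mul_eq_mul_orderOf_of_coprime, hx, hy]
    rw [hx, hy]
    exact (Nat.coprime_primes Nat.prime_two hr).2 hr2.symm
  have hsq : ∀ {x : G ⧸ K}, orderOf x = 2 → x * x = 1 := by
    intro x hx
    have h1 := pow_orderOf_eq_one x
    rwa [hx, pow_two] at h1
  set E : Subgroup (G ⧸ K) := closure {a, b} with hE
  have haE : a ∈ E := subset_closure (by simp)
  have hbE : b ∈ E := subset_closure (by simp)
  have hcomm : ∀ x ∈ E, ∀ y ∈ E, x * y = y * x := by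
    have h1 : ∀ x ∈ ({a, b} : Set (G ⧸ K)), ∀ y ∈ ({a, b} : Set (G ⧸ K)), x * y = y * x := by
      intro x hx y hy
      simp only [Set.mem_insert_iff, Set.mem_singleton_iff] at hx hy
      rcases hx with rfl | rfl <;> rcases hy with rfl | rfl
      · rfl
      · exact hcab.eq
      · exact hcab.eq.symm
      · rfl
    intro x hx y hy
    have h2 : E ≤ centralizer (E : Set (G ⧸ K)) := by
      rw [hE, Subgroup.closure_le]
      intro z hz
      rw [SetLike.mem_coe, Subgroup.mem_centralizer_iff]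
      intro w hw
      induction hw using Subgroup.closure_induction with
      | mem w hw => exact h1 w hw z hz
      | one => rw [one_mul, mul_one]
      | mul v w _ _ hv hw => rw [mul_assoc, hw, ← mul_assoc, hv, mul_assoc]
      | inv v _ hv => rw [inv_mul_eq_iff_eq_mul, ← mul_assoc, hv, mul_inv_cancel_right]
    exact (Subgroup.mem_centralizer_iff.1 (h2 hy) x hx)
  have hexp : ∀ x ∈ E, x * x = 1 := by
    intro x hx
    induction hx using Subgroup.closure_induction with
    | mem x hx =>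
      simp only [Set.mem_insert_iff, Set.mem_singleton_iff] at hx
      rcases hx with rfl | rfl
      · exact hsq ha
      · exact hsq hb
    | one => rw [one_mul]
    | mul v w hv hw h3 h4 =>
      have h5 : Commute v w := hcomm v hv w hw
      rw [h5.symm.mul_mul_mul_comm, h3, h4, one_mul]
    | inv v _ h3 => rw [← mul_inv_rev, h3, inv_one]
  have hEp : IsPGroup 2 ↥E := by
    intro x
    refine ⟨1, ?_⟩
    apply Subtype.ext
    rw [pow_one, pow_two]
    exact hexp x x.2
  obtain ⟨T, hTp, hTm, hTq⟩ := exists_isQ K hr hr2 hrK h E hEp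
  -- `T` has exponent 2
  have hT2 : ∀ t ∈ T, t * t = 1 := by
    intro t ht
    have h1 : QuotientGroup.mk' K t ∈ E := by rw [← hTm]; exact ⟨t, ht, rfl⟩
    have h2 := hexp _ h1
    rw [← map_mul] at h2
    have h3 : t * t ∈ K := (QuotientGroup.eq_one_iff _).1 h2
    by_contra hne
    apply hK2
    obtain ⟨k, hk⟩ := hTp (⟨t * t, T.mul_mem ht ht⟩ : T)
    have h4 : (t * t) ^ 2 ^ k = 1 := congrArg Subtype.val hk
    obtain ⟨j, -, hj⟩ := (Nat.dvd_prime_pow Nat.prime_two).1 (orderOf_dvd_of_pow_eq_one h4)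
    have h5 : j ≠ 0 := by
      rintro rfl
      rw [pow_zero, orderOf_eq_one_iff] at hj
      exact hne hj
    have h6 : orderOf (⟨t * t, h3⟩ : K) ∣ Nat.card K := orderOf_dvd_natCard _
    rw [Subgroup.orderOf_mk, hj] at h6
    exact (dvd_pow_self 2 h5).trans h6
  rcases hTq with hc | ⟨n, ⟨e⟩⟩
  · obtain ⟨g, hg⟩ := hc.exists_generator
    have h1 : orderOf g = Nat.card T := orderOf_eq_card_of_forall_mem_zpowers hg
    have h2 : orderOf g ∣ 2 := orderOf_dvd_of_pow_eq_one (by rw [pow_two]; exact Subtype.ext (hT2 g g.2))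
    have h3 : Nat.card E ∣ 2 := by
      rw [← hTm]
      refine (Subgroup.card_map_dvd T _).trans ?_
      rw [← h1]
      exact h2
    have h4 : 3 ≤ Nat.card E := by
      have h5 : Nat.card ({1, a, b} : Finset (G ⧸ K)) ≤ Nat.card E := by
        refine Nat.card_le_card_of_injective (fun z : ({1, a, b} : Finset (G ⧸ K)) => (⟨z, ?_⟩ : E)) ?_
        · have := z.2
          simp only [Finset.mem_insert, Finset.mem_singleton] at this
          rcases this with h6 | h6 | h6 <;> rw [h6]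
          · exact one_mem E
          · exact haE
          · exact hbE
        · intro z w hzw
          have h9 := congrArg (fun e : E => (e : G ⧸ K)) hzw
          exact Subtype.ext h9
      have h6 : Nat.card ({1, a, b} : Finset (G ⧸ K)) = 3 := by
        have h7 : (1 : G ⧸ K) ≠ a := by
          rintro rfl
          rw [orderOf_one] at ha
          norm_num at ha
        have h8 : (1 : G ⧸ K) ≠ b := by
          rintro rfl
          rw [orderOf_one] at hb
          norm_num at hb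
        rw [Nat.card_eq_fintype_card, Fintype.card_coe, Finset.card_insert_of_notMem (by simp [h7, h8]),
          Finset.card_insert_of_notMem (by simp [hab]), Finset.card_singleton]
      omega
    have := Nat.le_of_dvd (by norm_num) h3
    omega
  · have hne : NeZero (2 ^ n) := ⟨by positivity⟩
    have h1 : orderOf (QuaternionGroup.xa (0 : ZMod (2 * 2 ^ n))) = 4 := QuaternionGroup.orderOf_xa 0
    have h2 : orderOf (e.symm (QuaternionGroup.xa (0 : ZMod (2 * 2 ^ n)))) = 4 := by rw [MulEquiv.orderOf_eq, h1]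
    have h3 : orderOf (e.symm (QuaternionGroup.xa (0 : ZMod (2 * 2 ^ n)))) ∣ 2 :=
      orderOf_dvd_of_pow_eq_one (by rw [pow_two]; exact Subtype.ext (hT2 _ (e.symm _).2))
    rw [h2] at h3
    norm_num at h3

/-- **the radical** -/
theorem not_dvd_rad (R : Red G K S) (hn : Group.IsNilpotent K) {r : ℕ} (hr : r.Prime) (hr2 : r ≠ 2)
    (h : ¬ ∃ x : G, orderOf x = 2 * r) : ¬ r ∣ Nat.card K := by
  intro hrK
  have h2' : Fact (Nat.Prime 2) := ⟨Nat.prime_two⟩
  have hsimple := R.simple
  have hS : IsComp S := isComp_of_normal inferInstance R.simple (exists_noncomm R.nonab)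
  have h2S := hS.two_dvd
  -- 2-subgroups
  have hsec : ∀ Q : Subgroup (G ⧸ K), IsPGroup 2 ↥Q → IsQD ↥Q := by
    intro Q hQ
    obtain ⟨T, -, hT, hTq⟩ := exists_isQ K hr hr2 hrK h Q hQ
    let f : ↥T →* ↥Q := ((QuotientGroup.mk' K).domRestrict T).codRestrict Q fun y => by
      rw [← hT]; exact ⟨y, y.2, rfl⟩
    refine hTq.quot f ?_
    rintro ⟨q, hq⟩
    rw [← hT] at hq
    obtain ⟨y, hy, rfl⟩ := hq
    exact ⟨⟨y, hy⟩, rfl⟩
  obtain ⟨Q⟩ : Nonempty (Sylow 2 ↥S) := inferInstance
  have hQ : IsQD ↥(Q : Subgroup ↥S) :=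
    (hsec ((Q : Subgroup ↥S).map S.subtype) (Q.isPGroup'.map _)).congr
      ((Q : Subgroup ↥S).equivMapOfInjective _ S.subtype_injective).symm
  obtain ⟨k, hk, ⟨e⟩⟩ := dihedral_of_simple hS.noncomm h2S Q hQ
  obtain ⟨j, hj⟩ := Q.isPGroup'.exists_card_eq
  have hj' : 2 * k = 2 ^ j := by
    rw [← hj, Nat.card_congr e.toEquiv, DihedralGroup.nat_card]
  obtain ⟨a, b, ha, hb, hab, hc⟩ := dihedral_four hk hj'
  have hcab : Commute (e.symm a) (e.symm b) := by
    show e.symm a * e.symm b = e.symm b * e.symm a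
    rw [← map_mul, ← map_mul, hc.eq]
  refine no_four hn hr hr2 h hrK (a := (((e.symm a : ↥(Q : Subgroup ↥S)) : ↥S) : G ⧸ K))
    (b := (((e.symm b : ↥(Q : Subgroup ↥S)) : ↥S) : G ⧸ K)) ?_ ?_ ?_ ?_
  · rw [Subgroup.orderOf_coe, Subgroup.orderOf_coe, MulEquiv.orderOf_eq, ha]
  · rw [Subgroup.orderOf_coe, Subgroup.orderOf_coe, MulEquiv.orderOf_eq, hb]
  · intro he
    exact hab (e.symm.injective (Subtype.ext (Subtype.ext he)))
  · exact congrArg (fun z : ↥(Q : Subgroup ↥S) => ((z : ↥S) : G ⧸ K)) hcab.eq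

/-- **an odd prime not adjacent to 2 is good** -/
theorem good_of_nil (R : Red G K S) (hn : Group.IsNilpotent K) {r : ℕ} (hr : r.Prime) (hr2 : r ≠ 2)
    (hrG : r ∣ Nat.card G) (h : ¬ ∃ x : G, orderOf x = 2 * r) : ¬ r ∣ Nat.card K ∧ ¬ r ∣ S.index := by
  have hrK := not_dvd_rad R hn hr hr2 h
  refine ⟨hrK, ?_⟩
  have hS : IsComp S := isComp_of_normal inferInstance R.simple (exists_noncomm R.nonab)
  have hrX : r ∣ Nat.card (G ⧸ K) := by
    have h1 : Nat.card G = Nat.card (G ⧸ K) * Nat.card ↥K := Subgroup.card_eq_card_quotient_mul_card_subgroup K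
    rw [h1] at hrG
    exact (hr.dvd_mul.1 hrG).resolve_right hrK
  have h2 : ¬ ∃ x : G ⧸ K, orderOf x = 2 * r := fun h2 => h (exists_order_quot K
    (Nat.mul_ne_zero two_ne_zero hr.ne_zero) h2)
  have hsimple := R.simple
  have hnt : Nontrivial (G ⧸ K) := by
    obtain ⟨a, b, hab⟩ := hS.noncomm
    refine ⟨⟨a * b, b * a, fun he => hab (Subtype.ext he)⟩⟩
  obtain ⟨T, h3, h4, -, h5, -⟩ := structure_of_dvd
    (Cfsg.Agent.H414.Vasiliev.quot_radical K R.solv R.max) Cfsg.Agent.H414.Vasiliev.good_comp hr hr2 hrX h2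
  have hTS := eq_of_normal hS h3 inferInstance h4 R.cent
  subst hTS
  exact h5

end Cfsg.Agent.R2.Spec.X3
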