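import Cfsg.Agent.R2.Spec.X3.PairDef
import Cfsg.Agent.R2.Spec.X3.PairI

/-!
# The pair lemma, type I (helper16, S3435, box X3)
-/

set_option autoImplicit false

namespace Cfsg.Agent.R2.Spec.X3

/-- the finite check: one pair -/
def ChkIn (x p a T N : ℕ) : Prop := 0 < N → ((a * (x ^ 2 + 1) : ℕ) - (2 * N : ℕ) : ℤ) ^ 2 ≤ 10 * (a * (x ^ 2 + 1) : ℕ) →
  ((x ^ 3 - 1) % (4 * N) = 0 ∨ (x ^ 2 - 1) % N = 0 ∨ (p * (x ^ 2 - 1)) % (4 * N) = 0 ∨ (p * (x - 1)) % N = 0) →
  (a = 1 ∧ 2 * N = x ^ 2 - 1) ∨ (p = x ∧ a = 1 ∧ 2 * N = x ^ 2 + x) ∨ (p = x ∧ 2 * N = a * (x ^ 2 - x)) ∨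
    ((x : ℤ), (T : ℤ), (N : ℤ)) ∈ excI

instance (x p a T N : ℕ) : Decidable (ChkIn x p a T N) := by unfold ChkIn; infer_instance

/-- the finite check -/
def ChkI (x p : ℕ) : Prop := ∀ a < x, a % 2 = 1 → (x + 1) % (2 * a) = 0 → ∀ i < 400,
  ChkIn x p a (a * ((x ^ 2 + 1) / 2)) (a * ((x ^ 2 + 1) / 2) + 200 - i)

instance (x p : ℕ) : Decidable (ChkI x p) := by unfold ChkI; infer_instance

theorem chkI5 : ChkI 5 5 := by decide +kernel
theorem chkI13 : ChkI 13 13 := by decide +kernel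
theorem chkI17 : ChkI 17 17 := by decide +kernel
theorem chkI25 : ChkI 25 5 := by decide +kernel

namespace Cand

variable {p M : ℕ} {x : ℤ} {S : Type*} [Group S] (h : Cand p x M S)

include h

theorem smallI (hx : x % 4 = 1) : (x = 5 ∧ p = 5) ∨ (x = 13 ∧ p = 13) ∨ (x = 17 ∧ p = 17) ∨ (x = 25 ∧ p = 5) ∨ 29 ≤ x := by
  have hp := h.hp
  have h5 := h.h5
  have hb : 5 ≤ x := by rcases h.x_bd with k | k | k <;> omega
  rcases lt_or_ge x 29 with h1 | h1
  · obtain ⟨k, hk, hx'⟩ := h.ex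
    have hd : p ∣ x.natAbs := by rw [hx']; exact dvd_pow_self p (by omega)
    have h9 : x = 5 ∨ x = 9 ∨ x = 13 ∨ x = 17 ∨ x = 21 ∨ x = 25 := by omega
    have key : ∀ n : ℕ, n ≠ 0 → p ∣ n → p ∈ n.primeFactors := fun n hn hpn => by
      rw [Nat.mem_primeFactors]; exact ⟨hp, hpn, hn⟩
    rcases h9 with rfl | rfl | rfl | rfl | rfl | rfl
    · left; refine ⟨rfl, ?_⟩
      exact (Nat.prime_dvd_prime_iff_eq hp (by norm_num)).1 hd
    · exfalso
      have h3 : p ∣ 3 ^ 2 := hd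
      have := (Nat.prime_dvd_prime_iff_eq hp Nat.prime_three).1 (hp.dvd_of_dvd_pow h3)
      omega
    · right; left; refine ⟨rfl, ?_⟩
      exact (Nat.prime_dvd_prime_iff_eq hp (by norm_num)).1 hd
    · right; right; left; refine ⟨rfl, ?_⟩
      exact (Nat.prime_dvd_prime_iff_eq hp (by norm_num)).1 hd
    · exfalso
      have h3 : p ∣ 3 * 7 := hd
      have h4 : 21 = p ^ k := hx'
      have h6 : (3 : ℕ) ∣ p ^ k := by rw [← h4]; norm_num
      have h7 : (7 : ℕ) ∣ p ^ k := by rw [← h4]; norm_num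
      have h8 := (Nat.prime_dvd_prime_iff_eq Nat.prime_three hp).1 (Nat.prime_three.dvd_of_dvd_pow h6)
      omega
    · right; right; right; left; refine ⟨rfl, ?_⟩
      have h3 : p ∣ 5 ^ 2 := hd
      exact (Nat.prime_dvd_prime_iff_eq hp (by norm_num)).1 (hp.dvd_of_dvd_pow h3)
  · right; right; right; right; exact h1

/-- **the pair lemma, type I** -/
theorem pairI (hx : x % 4 = 1) {T N : ℕ} (hT : ∃ g : S, orderOf g = T) (hMT : M ∣ T) (hN : ∃ g : S, orderOf g = N)
    (hN0 : N ≠ 0) (hNM : Nat.Coprime N M) (hK : ((T : ℤ) - N) ^ 2 ≤ 5 * T) : OutI p x T N := by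
  obtain ⟨a, hTa, hao, ha1, haI, -⟩ := h.tor hT hMT
  have hb : 5 ≤ x := by rcases h.x_bd with k | k | k <;> omega
  have hM : 2 * (M : ℤ) = x ^ 2 + 1 := by
    rcases h.typ with h4 | ⟨δ, h4, -⟩
    · exact h4.2.2
    · omega
  obtain ⟨i, hi⟩ := haI hx
  have hfree := h.freeI hN hNM hx
  have haZ : (1 : ℤ) ≤ a := by exact_mod_cast ha1
  have haoZ : (a : ℤ) % 2 = 1 := by omega
  have hT2 : 2 * (T : ℤ) = a * (x ^ 2 + 1) := by rw [hTa, ← hM]; push_cast; ring
  have hK' : ((a : ℤ) * (x ^ 2 + 1) - 2 * N) ^ 2 ≤ 10 * (a * (x ^ 2 + 1)) := by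
    rw [← hT2]
    nlinarith
  have hai : 2 * ((a : ℤ) * i) = x + 1 := by rw [hi]; ring
  have hp5 := h.h5
  have hppos : (0 : ℤ) < p := by exact_mod_cast h.hp.pos
  rcases (by rcases h.smallI hx with k | k | k | k | k <;> tauto :
    (29 ≤ x) ∨ ((x = 5 ∧ p = 5) ∨ (x = 13 ∧ p = 13) ∨ (x = 17 ∧ p = 17) ∨ (x = 25 ∧ p = 5))) with hbig | hsm
  · have hNZ : (0 : ℤ) < N := by exact_mod_cast Nat.pos_of_ne_zero hN0
    have hpar : (p : ℤ) % 2 = 1 := by
      rcases h.hp.eq_two_or_odd with k | k <;> omega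
    have jpos : ∀ j c : ℤ, 0 < c → (N : ℤ) * j = c → 1 ≤ j := by
      intro j c hc hj
      by_contra hcon
      push Not at hcon
      nlinarith
    rcases hfree with k | k | k | k
    · exfalso
      obtain ⟨j, hj⟩ := k
      have e : (N : ℤ) * (4 * j) = x ^ 3 - 1 := by rw [hj]; ring
      have hj1 : 1 ≤ j := by
        have := jpos (4 * j) (x ^ 3 - 1) (by nlinarith [sq_nonneg x]) e
        omega
      exact PairI.pA hbig hx haZ haoZ hai hj1 e hK'
    · obtain ⟨j, hj⟩ := k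
      have hj1 := jpos j (x ^ 2 - 1) (by nlinarith) hj.symm
      obtain ⟨h1, h2⟩ := PairI.pC hbig haZ hj1 hj.symm haoZ hK'
      left
      rw [h1, one_mul] at hT2
      exact ⟨hT2, h2⟩
    · obtain ⟨j, hj⟩ := k
      have e : (N : ℤ) * (4 * j) = p * (x ^ 2 - 1) := by rw [hj]; ring
      have hj1 : 1 ≤ j := by
        have := jpos (4 * j) (p * (x ^ 2 - 1)) (mul_pos hppos (by nlinarith)) e
        omega
      rcases h.p_cases with hp | hp
      · rw [abs_of_nonneg (by omega)] at hp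
        rw [hp] at e
        right
        rcases PairI.pD hbig haZ haoZ (by omega) hai hj1 e hK' with ⟨h1, h2⟩ | h2
        · left
          rw [h1, one_mul] at hT2
          exact ⟨hp, hT2, h2⟩
        · right; left
          exact ⟨hp, a, haZ, haoZ, hT2, h2⟩
      · exfalso
        rw [abs_of_nonneg (by omega)] at hp
        exact PairI.pD' hbig (by exact_mod_cast hp5) hpar hp haZ hj1 e hK'
    · rcases h.p_cases with hp | hp
      · rw [abs_of_nonneg (by omega)] at hp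
        obtain ⟨j, hj⟩ := k
        have e : (N : ℤ) * j = x * (x - 1) := by rw [← hj, hp]
        have hj1 := jpos j (x * (x - 1)) (by nlinarith) e
        obtain ⟨h1, h2⟩ := PairI.pE hbig haZ haoZ hj1 e hK'
        right; right; left
        exact ⟨hp, a, haZ, haoZ, hT2, by rw [h1, one_mul]; exact h2⟩
      · exfalso
        rw [abs_of_nonneg (by omega)] at hp
        refine PairI.pE' (by omega) hp haZ hNZ.le (Int.le_of_dvd (mul_pos hppos (by omega)) k) hK'
  · -- the finite check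
    have hclose : (T : ℤ) - N ≤ 199 ∧ (N : ℤ) - T ≤ 199 := by
      have h2T : (T : ℤ) ≤ 4069 := by
        have h1 : (2 * (a : ℤ)) ≤ x + 1 := Int.le_of_dvd (by omega) ⟨i, hi⟩
        have : 4 * (T : ℤ) ≤ (x + 1) * (x ^ 2 + 1) := by nlinarith [sq_nonneg x]
        rcases hsm with ⟨rfl, -⟩ | ⟨rfl, -⟩ | ⟨rfl, -⟩ | ⟨rfl, -⟩ <;> norm_num at this ⊢ <;> linarith
      constructor <;> nlinarith
    obtain ⟨y, hy⟩ : ∃ y : ℕ, x = y := ⟨x.toNat, by omega⟩
    subst hy
    have hMy : M = (y ^ 2 + 1) / 2 := by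
      have h1 : 2 * M = y ^ 2 + 1 := by exact_mod_cast hM
      omega
    have hy5 : 5 ≤ y := by exact_mod_cast hb
    have hchk : ChkI y p := by
      rcases hsm with ⟨h1, rfl⟩ | ⟨h1, rfl⟩ | ⟨h1, rfl⟩ | ⟨h1, rfl⟩
      · have : y = 5 := by exact_mod_cast h1
        subst this; exact chkI5
      · have : y = 13 := by exact_mod_cast h1
        subst this; exact chkI13
      · have : y = 17 := by exact_mod_cast h1
        subst this; exact chkI17
      · have : y = 25 := by exact_mod_cast h1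
        subst this; exact chkI25
    have hyo : y % 2 = 1 := by omega
    have hi0 : 0 < i := by
      by_contra hcon
      push Not at hcon
      nlinarith
    have haN : (y + 1) % (2 * a) = 0 := by
      have : (((2 * a : ℕ)) : ℤ) ∣ ((y + 1 : ℕ) : ℤ) := by push_cast; exact ⟨i, hi⟩
      exact Nat.mod_eq_zero_of_dvd (by exact_mod_cast this)
    have haY : a < y := by
      have h1 : (2 * (a : ℤ)) ≤ y + 1 := Int.le_of_dvd (by omega) ⟨i, hi⟩
      omega
    have hTy : T = a * ((y ^ 2 + 1) / 2) := by rw [hTa, hMy]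
    -- `N = T + 200 - i'`
    obtain ⟨i', hi', hNi⟩ : ∃ i' < 400, a * ((y ^ 2 + 1) / 2) + 200 - i' = N := by
      refine ⟨T + 200 - N, by omega, by rw [← hTy]; omega⟩
    have hsq1 : 1 ≤ y ^ 2 := Nat.one_le_pow _ _ (by omega)
    have hcu1 : 1 ≤ y ^ 3 := Nat.one_le_pow _ _ (by omega)
    have hc2 : ((y ^ 2 - 1 : ℕ) : ℤ) = (y : ℤ) ^ 2 - 1 := by push_cast [hsq1]; rfl
    have hc3 : ((y ^ 3 - 1 : ℕ) : ℤ) = (y : ℤ) ^ 3 - 1 := by push_cast [hcu1]; rfl
    have hc1 : ((y - 1 : ℕ) : ℤ) = (y : ℤ) - 1 := by push_cast [show 1 ≤ y by omega]; rfl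
    have hcx : ((y ^ 2 - y : ℕ) : ℤ) = (y : ℤ) ^ 2 - y := by
      push_cast [Nat.le_self_pow two_ne_zero y]; rfl
    have hres0 := hchk a haY hao haN i' hi'
    rw [hNi, ← hTy] at hres0
    have hres := hres0 (by omega) (by push_cast; exact hK')
      (by
        rcases hfree with k | k | k | k
        · left
          apply Nat.mod_eq_zero_of_dvd
          rw [← hc3] at k
          exact_mod_cast k
        · right; left
          apply Nat.mod_eq_zero_of_dvd
          rw [← hc2] at k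
          exact_mod_cast k
        · right; right; left
          apply Nat.mod_eq_zero_of_dvd
          rw [← hc2] at k
          exact_mod_cast k
        · right; right; right
          apply Nat.mod_eq_zero_of_dvd
          rw [← hc1] at k
          exact_mod_cast k)
    rcases hres with ⟨h1, h2⟩ | ⟨h1, h2, h3⟩ | ⟨h1, h2⟩ | h1
    · left
      rw [h1] at hT2
      refine ⟨by simpa using hT2, ?_⟩
      rw [← hc2]; exact_mod_cast h2
    · right; left
      rw [h2] at hT2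
      refine ⟨by exact_mod_cast h1, by simpa using hT2, by exact_mod_cast h3⟩
    · right; right; left
      refine ⟨by exact_mod_cast h1, a, haZ, haoZ, hT2, ?_⟩
      rw [← hcx]; exact_mod_cast h2
    · right; right; right
      exact h1

end Cand

end Cfsg.Agent.R2.Spec.X3
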