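import Cfsg.Agent.R2.Spec.X3.PairII
import Cfsg.Agent.R2.Spec.X3.PairChk

/-!
# The pair lemma, type II: `2 N ∣ (x² + 1)(x + 1)` and `2 N ∣ p (x² - 1)`, `p = |x|` (helper16, S3435, box X3)
-/

set_option autoImplicit false

namespace Cfsg.Agent.R2.Spec.X3.PairII

/-- one pair -/
def InZ (s y a : ℤ) : Prop :=
  ((s * y) % 12 = 7 → (a * (y ^ 2 + 1) * (y + s)) % (3 * (y - s)) ≠ 0) ∧
  (a < 6 → (a * (y ^ 2 + 1) * (y + s)) % (y - s) ≠ 0)

instance (s y a : ℤ) : Decidable (InZ s y a) := by unfold InZ; infer_instance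

/-- small `a` with `j = i` -/
def ChkZ (s : ℤ) : Prop := ∀ y < 70, 29 ≤ y → (s * (y : ℕ)) % 4 = 3 → ∀ a < 18, a % 2 = 1 → InZ s y (a : ℕ)

instance (s : ℤ) : Decidable (ChkZ s) := by unfold ChkZ; infer_instance

theorem chkZ1 : ChkZ 1 := by decide +kernel
theorem chkZ2 : ChkZ (-1) := by decide +kernel

section

variable {y s P d a : ℤ} (hy : 29 ≤ y) (hs : s = 1 ∨ s = -1) (hP : P = y ^ 2 + s * y + 1)
  (h4 : (s * y) % 4 = 3) (ha : 1 ≤ a) (hao : a % 2 = 1)

include hy hs hP h4 ha hao in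
/-- `z = - d s` -/
theorem pB_neg {i j N : ℤ} (hd : d = 1 ∨ (d = 3 ∧ (s * y) % 12 = 7)) (hij : 2 * (a * j) = d * (y - s)) (hj : 1 ≤ j)
    (h : N * (2 * j) = (y ^ 2 + 1) * (y + s))
    (hK : (a * P - d * N) ^ 2 ≤ 5 * d * (a * P)) : False := by
  obtain ⟨hP1, hP2, hP3⟩ := P_ge hy hs hP
  have hd0 : 0 < d := by rcases hd with rfl | ⟨rfl, -⟩ <;> norm_num
  have h1 : 2 * j * (a * P - d * N) = -(d * s) * (P + 1) := by
    have e : (y ^ 2 + 1) * (y + s) = y * P + s := by rw [hP]; rcases hs with rfl | rfl <;> ring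
    rw [e] at h
    linear_combination P * hij - d * h
  have hs2 : s ^ 2 = 1 := by rcases hs with rfl | rfl <;> norm_num
  have h2 : a * (d ^ 2 * (P + 1) ^ 2) ≤ 5 * d * ((d * (y - s)) ^ 2 * P) := by
    have h3 := mul_le_mul_of_nonneg_left hK (by positivity : 0 ≤ a * (4 * j ^ 2))
    have e1 : a * (4 * j ^ 2) * (a * P - d * N) ^ 2 = a * (2 * j * (a * P - d * N)) ^ 2 := by ring
    have e2 : a * (4 * j ^ 2) * (5 * d * (a * P)) = 5 * d * ((2 * (a * j)) ^ 2 * P) := by ring
    rw [e1, e2, h1, hij] at h3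
    have e3 : (-(d * s) * (P + 1)) ^ 2 = d ^ 2 * (P + 1) ^ 2 := by
      have : (-(d * s) * (P + 1)) ^ 2 = s ^ 2 * (d ^ 2 * (P + 1) ^ 2) := by ring
      rw [this, hs2, one_mul]
    rwa [e3] at h3
  -- `a (P + 1)² ≤ 5 d (y - s)² P`
  have h5 : a * (P + 1) ≤ 5 * d * (y - s) ^ 2 := by
    have h6 : a * (P + 1) * (d ^ 2 * P) ≤ 5 * d * (y - s) ^ 2 * (d ^ 2 * P) := by
      have h7 : a * (P + 1) * (d ^ 2 * P) ≤ a * (d ^ 2 * (P + 1) ^ 2) := by
        have h8 : 0 ≤ a * (P + 1) * d ^ 2 := by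
          have : 0 ≤ P + 1 := by omega
          positivity
        linarith
      linarith
    exact le_of_mul_le_mul_right h6 (by positivity)
  have hys : (y - s) ^ 2 ≤ (y + 1) ^ 2 := pow_le_pow_left₀ (by rcases hs with rfl | rfl <;> omega)
    (by rcases hs with rfl | rfl <;> omega) 2
  have h6 : (y + 1) ^ 2 * 14 ≤ 16 * P := by
    rcases hs with rfl | rfl <;> rw [hP] <;> nlinarith only [hy, mul_nonneg (sub_nonneg.2 hy) (sub_nonneg.2 hy)]
  have ha16 : 14 * a ≤ 80 * d := by
    by_contra hcon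
    push Not at hcon
    have h7 : d * (y - s) ^ 2 ≤ d * (y + 1) ^ 2 := mul_le_mul_of_nonneg_left hys hd0.le
    have h8 : d * ((y + 1) ^ 2 * 14) ≤ d * (16 * P) := mul_le_mul_of_nonneg_left h6 hd0.le
    have h9 : 80 * d * (P + 1) < 14 * a * (P + 1) := mul_lt_mul_of_pos_right hcon (by omega)
    linarith
  -- `(y - s) ∣ 4 a`
  have h7 : d * (y - s) * N = a * (y ^ 2 + 1) * (y + s) := by
    rw [← hij]; linear_combination a * h
  have h8 : (y - s) ∣ a * (y ^ 2 + 1) * (y + s) := ⟨d * N, by rw [← h7]; ring⟩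
  have h9 : (y - s) ∣ 4 * a := by
    have e : a * (y ^ 2 + 1) * (y + s) = (y - s) * (a * (y ^ 2 + 2 * s * y + 1 + 2 * s ^ 2)) + 4 * a * s := by
      rcases hs with rfl | rfl <;> ring
    rw [e] at h8
    have h10 := (dvd_add_right (dvd_mul_right _ _)).1 h8
    have h11 := Dvd.dvd.mul_right h10 s
    have e2 : 4 * a * s * s = 4 * a := by rw [mul_assoc, ← sq, hs2, mul_one]
    rwa [e2] at h11
  have h10 := Int.le_of_dvd (by omega) h9
  have ha17 : a < 18 := by rcases hd with rfl | ⟨rfl, -⟩ <;> omega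
  have hy66 : y < 70 := by rcases hs with rfl | rfl <;> omega
  obtain ⟨Y, rfl⟩ : ∃ Y : ℕ, y = Y := ⟨y.toNat, by omega⟩
  obtain ⟨A, rfl⟩ : ∃ A : ℕ, a = A := ⟨a.toNat, by omega⟩
  have hchk : ChkZ s := by
    rcases hs with rfl | rfl
    · exact chkZ1
    · exact chkZ2
  have h11 := hchk Y (by omega) (by omega) h4 A (by omega) (by omega)
  rcases hd with rfl | ⟨rfl, h12⟩
  · refine h11.2 (by omega) ?_
    rw [← h7, one_mul]
    exact Int.mul_emod_right _ _
  · refine h11.1 h12 ?_
    rw [← h7]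
    exact Int.mul_emod_right _ _

include hy hs hP h4 ha hao in
/-- **`2 N ∣ (x² + 1)(x + 1)`** -/
theorem pB {i j N : ℤ} (hd : d = 1 ∨ (d = 3 ∧ (s * y) % 12 = 7)) (hai : 2 * (a * i) = d * (y - s)) (hj : 1 ≤ j)
    (h : N * (2 * j) = (y ^ 2 + 1) * (y + s))
    (hK : (a * P - d * N) ^ 2 ≤ 5 * d * (a * P)) : (a = d ∧ N = y ^ 2 + 1) ∨ (a = 1 ∧ d = 3 ∧
      (s * y, P, N) ∈ ([(31, 993, 296), (307, 94557, 31900), (343, 117993, 38915), (-41, 1641, 580),
        (-89, 7833, 2563)] : List (ℤ × ℤ × ℤ))) := by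
  obtain ⟨hP1, hP2, hP3⟩ := P_ge hy hs hP
  have hyo : y % 2 = 1 := by rcases hs with rfl | rfl <;> omega
  have hs2 : s ^ 2 = 1 := by rcases hs with rfl | rfl <;> norm_num
  have hd0 : 0 < d := by rcases hd with rfl | ⟨rfl, -⟩ <;> norm_num
  have hdo : d % 2 = 1 := by rcases hd with rfl | ⟨rfl, -⟩ <;> norm_num
  obtain ⟨z, hz⟩ : ∃ z, z = 2 * (a * j) - d * y := ⟨_, rfl⟩
  have hzj : 2 * (a * j) = d * y + z := by rw [hz]; ring
  have hzo : z % 2 = 1 := by rcases hd with rfl | ⟨rfl, -⟩ <;> omega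
  have e : (y ^ 2 + 1) * (y + s) = y * P + s := by rw [hP]; rcases hs with rfl | rfl <;> ring
  have h1 : 2 * j * (a * P - d * N) = z * P + -(d * s) := by
    have h' := h
    rw [e] at h'
    linear_combination P * hzj - d * h'
  have hpos : 0 < d * y + z := by rw [← hzj]; positivity
  have h2 : a * (z * P + -(d * s)) ^ 2 ≤ 5 * d * ((d * y + z) ^ 2 * P) := by
    have h3 := mul_le_mul_of_nonneg_left hK (by positivity : 0 ≤ a * (4 * j ^ 2))
    have e1 : a * (4 * j ^ 2) * (a * P - d * N) ^ 2 = a * (2 * j * (a * P - d * N)) ^ 2 := by ring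
    have e2 : a * (4 * j ^ 2) * (5 * d * (a * P)) = 5 * d * ((2 * (a * j)) ^ 2 * P) := by ring
    rwa [e1, e2, h1, hzj] at h3
  have hak : 2 * (a * (j - i)) = z + d * s := by linarith [mul_sub a j i]
  have hz1 : 1 ≤ |z| := Int.one_le_abs (by rintro rfl; omega)
  obtain ⟨Y, hY0, hPY, hY⟩ := facts hy hs hP
  have hr : |-(d * s)| ≤ 3 := by
    rw [abs_neg, abs_mul, abs_of_pos hd0]
    have : |s| = 1 := by rcases hs with rfl | rfl <;> norm_num
    rw [this]
    rcases hd with rfl | ⟨rfl, -⟩ <;> norm_num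
  have hrz : 3 ≤ |z| * P := by nlinarith
  have hsq : 0 ≤ (z * P + -(d * s)) ^ 2 := sq_nonneg _
  by_cases hneg : z = -(d * s)
  · exfalso
    refine pB_neg (i := i) hy hs hP h4 ha hao hd ?_ hj h hK
    rw [hzj, hneg]; ring
  rcases hd with rfl | ⟨rfl, h12⟩
  · -- `d = 1`
    have h3 : (z * P + -(1 * s)) ^ 2 ≤ 5 * ((1 * y + z) ^ 2 * P) :=
      (le_mul_of_one_le_left hsq ha).trans (h2.trans (le_of_eq (by ring)))
    have h5 := abs_form hr (by omega : 0 ≤ P) (by omega : 0 ≤ 1 * y) hpos.le h3 (by norm_num) hrz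
    have h6 := sqrt5 (by omega) hY0 hPY h5
    have hz3 : |z| < 3 := by
      by_contra hcon
      push Not at hcon
      have h7 : |z| * (1000 * P - 2237 * Y) ≤ 3000 + 2237 * (Y * y) := by linarith
      have h8 : 3000 + 2237 * (Y * y) < 3 * (1000 * P - 2237 * Y) := by
        rcases hY with ⟨rfl, rfl⟩ | ⟨rfl, rfl⟩ <;> rw [hP] <;>
          nlinarith only [hy, mul_nonneg (sub_nonneg.2 hy) (sub_nonneg.2 hy)]
      have h9 : 0 ≤ Y * y := mul_nonneg hY0 (by omega)
      have h10 : 3 * (1000 * P - 2237 * Y) ≤ |z| * (1000 * P - 2237 * Y) :=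
        mul_le_mul_of_nonneg_right hcon (by linarith)
      linarith
    have hzs : z = s := by
      have h7 := abs_lt.1 hz3
      rcases hs with rfl | rfl <;> omega
    subst hzs
    have ha1 : a * (j - i) = z := by linarith
    have ha2 : a = 1 := by
      have h7 : a ∣ z := ⟨_, ha1.symm⟩
      have h8 : a ∣ 1 := by
        rcases hs with h9 | h9
        · rwa [h9] at h7
        · rw [h9] at h7; exact (Int.dvd_neg).1 h7
      exact Int.eq_one_of_dvd_one (by omega) h8
    left
    refine ⟨ha2, ?_⟩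
    subst ha2
    have h7 : (y + z) * N = (y + z) * (y ^ 2 + 1) := by
      have : N * (2 * (1 * j)) = N * (2 * j) := by ring
      rw [hzj, h] at this
      linarith
    exact mul_left_cancel₀ (by rcases hs with h9 | h9 <;> omega) h7
  · -- `d = 3`
    have h3 : (z * P + -(3 * s)) ^ 2 ≤ 15 * ((3 * y + z) ^ 2 * P) :=
      (le_mul_of_one_le_left hsq ha).trans (h2.trans (le_of_eq (by ring)))
    have h5 := abs_form hr (by omega : 0 ≤ P) (by omega : 0 ≤ 3 * y) hpos.le h3 (by norm_num) hrz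
    have h6 := sqrt15 (by omega) hY0 hPY h5
    have hYy : 0 ≤ Y * y := mul_nonneg hY0 (by omega)
    have hz15 : |z| < 15 := by
      by_contra hcon
      push Not at hcon
      have h7 : |z| * (1000 * P - 3873 * Y) ≤ 3000 + 11619 * (Y * y) := by linarith
      have h8 : 3000 + 11619 * (Y * y) < 15 * (1000 * P - 3873 * Y) := by
        rcases hY with ⟨rfl, rfl⟩ | ⟨rfl, rfl⟩ <;> rw [hP] <;>
          nlinarith only [hy, mul_nonneg (sub_nonneg.2 hy) (sub_nonneg.2 hy)]
      have h10 : 15 * (1000 * P - 3873 * Y) ≤ |z| * (1000 * P - 3873 * Y) :=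
        mul_le_mul_of_nonneg_right hcon (by linarith)
      linarith
    have hzl := abs_lt.1 hz15
    rcases (by omega : a = 1 ∨ 3 ≤ a) with ha1 | ha3
    · subst ha1
      rw [one_mul] at hzj
      -- `3 N = y² + 1` is impossible
      have hz3s : z ≠ 3 * s := by
        intro h7
        have h8 : (y + s) * (3 * N) = (y + s) * (y ^ 2 + 1) := by
          rw [h7] at hzj
          have : N * (2 * j) = N * (3 * (y + s)) := by rw [hzj]; ring
          rw [h] at this
          linarith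
        have h9 : 3 * N = y ^ 2 + 1 := mul_left_cancel₀ (by rcases hs with h9 | h9 <;> omega) h8
        have h10 : (y ^ 2 + 1) % 3 = 0 := by omega
        have h11 : y % 3 = 0 ∨ y % 3 = 1 ∨ y % 3 = 2 := by omega
        rcases h11 with h11 | h11 | h11 <;> rw [Int.add_emod, pow_two, Int.mul_emod, h11] at h10 <;> norm_num at h10
      -- `W ∣ (z² + 9)(3 s - z)`
      have h7 : (3 * y + z) ∣ (z ^ 2 + 9) * (3 * s - z) := by
        have h8 : (3 * y + z) * (27 * N) = 27 * ((y ^ 2 + 1) * (y + s)) := by rw [← h, ← hzj]; ring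
        have h9 : (z ^ 2 + 9) * (3 * s - z) = (3 * y + z) * (27 * N - (9 * y ^ 2 + 9 * s * y + 9 - 3 * y * z -
            3 * s * z + z ^ 2)) := by
          linear_combination (-1) * h8
        exact ⟨_, h9⟩
      have hne : (z ^ 2 + 9) * (3 * s - z) ≠ 0 := mul_ne_zero (by positivity) (by omega)
      have h8 := Int.le_of_dvd (abs_pos.2 hne) ((dvd_abs _ _).2 h7)
      have h9 : |(z ^ 2 + 9) * (3 * s - z)| ≤ 205 * 17 := by
        rw [abs_mul]
        refine mul_le_mul ?_ ?_ (abs_nonneg _) (by norm_num)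
        · rw [abs_of_pos (by positivity)]
          nlinarith
        · rw [abs_le]; rcases hs with rfl | rfl <;> constructor <;> omega
      have hy960 : y < 1200 := by omega
      -- sharper
      have hz13 : -13 ≤ z ∧ z ≤ 13 := by omega
      have h10 : |(z ^ 2 + 9) * (3 * s - z)| ≤ 178 * 16 := by
        rw [abs_mul]
        refine mul_le_mul ?_ ?_ (abs_nonneg _) (by norm_num)
        · rw [abs_of_pos (by positivity)]
          nlinarith
        · rw [abs_le]; rcases hs with rfl | rfl <;> constructor <;> omega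
      have hy960 : y < 960 := by omega
      obtain ⟨Z, hZ⟩ : ∃ Z : ℕ, z = 2 * (Z : ℤ) - 13 := ⟨((z + 13) / 2).toNat, by omega⟩
      obtain ⟨U, rfl⟩ : ∃ U : ℕ, y = U := ⟨y.toNat, by omega⟩
      have hchk : ChkB s := by
        rcases hs with rfl | rfl
        · exact chkB1
        · exact chkB2
      have h11 := hchk U (by omega) (by omega) h12 Z (by omega)
      rw [← hZ] at h11
      have hW : (((U : ℤ) ^ 2 + 1) * (U + s)) = (3 * U + z) * N := by rw [← h, ← hzj]; ring
      have hWpos : 0 < 3 * (U : ℤ) + z := hpos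
      unfold InB at h11
      rw [hW, Int.mul_emod_right, Int.mul_ediv_cancel_left _ hWpos.ne', ← hP] at h11
      right
      refine ⟨rfl, rfl, h11 rfl ?_⟩
      have := hK
      rw [one_mul] at this
      linarith
    · -- `a ≥ 3`
      left
      have h3' : (z * P + -(3 * s)) ^ 2 ≤ 5 * ((3 * y + z) ^ 2 * P) := by
        have := mul_le_mul_of_nonneg_right ha3 hsq
        linarith
      have h5' := abs_form hr (by omega : 0 ≤ P) (by omega : 0 ≤ 3 * y) hpos.le h3' (by norm_num) hrz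
      have h6' := sqrt5 (by omega) hY0 hPY h5'
      have hz9 : |z| < 9 := by
        by_contra hcon
        push Not at hcon
        have h7 : |z| * (1000 * P - 2237 * Y) ≤ 3000 + 6711 * (Y * y) := by linarith
        have h8 : 3000 + 6711 * (Y * y) < 9 * (1000 * P - 2237 * Y) := by
          rcases hY with ⟨rfl, rfl⟩ | ⟨rfl, rfl⟩ <;> rw [hP] <;>
            nlinarith only [hy, mul_nonneg (sub_nonneg.2 hy) (sub_nonneg.2 hy)]
        have h10 : 9 * (1000 * P - 2237 * Y) ≤ |z| * (1000 * P - 2237 * Y) :=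
          mul_le_mul_of_nonneg_right hcon (by linarith)
        linarith
      have hzl' := abs_lt.1 hz9
      have hk0 : j - i ≠ 0 := by
        intro h0
        rw [h0, mul_zero, mul_zero] at hak
        exact hneg (by linarith)
      have hk1 : 1 ≤ |j - i| := Int.one_le_abs hk0
      have hak2 : a * |j - i| ≤ 5 := by
        have h7 : |2 * (a * (j - i))| = 2 * (a * |j - i|) := by
          rw [abs_mul, abs_mul, abs_of_pos (by omega : 0 < a)]; norm_num
        have h8 : |2 * (a * (j - i))| ≤ 11 := by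
          rw [hak, abs_le]
          rcases hs with rfl | rfl <;> constructor <;> omega
        omega
      have ha5 : a ≤ 5 := by nlinarith
      rcases (by omega : a = 3 ∨ a = 5) with rfl | rfl
      · have hk2 : j - i = 1 ∨ j - i = -1 := by
          have h7 : |j - i| ≤ 1 := by omega
          have := abs_le.1 h7
          omega
        have hz3s : z = 3 * s := by
          rcases hs with rfl | rfl <;> rcases hk2 with h7 | h7 <;> rw [h7] at hak <;> omega
        refine ⟨rfl, ?_⟩
        have h7 : 2 * j = y + s := by omega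
        have h8 : (y + s) * N = (y + s) * (y ^ 2 + 1) := by rw [← h7, mul_comm, h, h7]; ring
        exact mul_left_cancel₀ (by rcases hs with h9 | h9 <;> omega) h8
      · exfalso
        have hk2 : j - i = 1 ∨ j - i = -1 := by
          have h7 : |j - i| ≤ 1 := by omega
          have := abs_le.1 h7
          omega
        have hz7 : |z| = 7 := by
          rcases hs with rfl | rfl <;> rcases hk2 with h7 | h7 <;> rw [h7] at hak
          · have : z = 7 := by omega
            rw [this]; norm_num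
          · omega
          · omega
          · have : z = -7 := by omega
            rw [this]; norm_num
        have h3'' : (z * P + -(3 * s)) ^ 2 ≤ 3 * ((3 * y + z) ^ 2 * P) := by linarith
        have h5'' := abs_form hr (by omega : 0 ≤ P) (by omega : 0 ≤ 3 * y) hpos.le h3'' (by norm_num) hrz
        rw [hz7] at h5''
        have h8 : (49 * P - 42) * P ≤ 3 * (3 * y + 7) ^ 2 * P := by linarith [sq_nonneg (3 : ℤ)]
        have h9 : 49 * P - 42 ≤ 3 * (3 * y + 7) ^ 2 := le_of_mul_le_mul_right h8 (by omega)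
        rw [hP] at h9
        rcases hs with rfl | rfl <;> nlinarith only [h9, hy, mul_nonneg (sub_nonneg.2 hy) (sub_nonneg.2 hy)]

end

end Cfsg.Agent.R2.Spec.X3.PairII
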